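import Cfsg.Agent.H290.ElTab
import Cfsg.Agent.H250.EqD.DdN
import Cfsg.Agent.H59.EP.UB

/-!
# S5745, section 4 (`CrossK`, `k ≥ 2`): the numbers (helper746)

* `Fam`, `nm`, `dn`, `dm` : the families, `dn f q * |G| = nm f q`, the dimension of the adjoint module;
* `tL X l e` : the order of a simple group of shape `X` over the field of `l ^ e` elements;
* `Lc t` : the bound for the number of `LocK` subgroups of a simple group of order `t`;
* `Dk t k`, `Bk t a k` : the bound (TK) for `|G|`, `|T| = t`, `|Aut T| ≤ a`, socle `T ^ k`.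
-/

set_option autoImplicit false

namespace Cfsg.Agent.H746.EK

open Cfsg.Agent.H902 Cfsg.Agent.H290.ElTab Cfsg.Agent.H59.EP

/-- the families -/
inductive Fam
  | e8 | e7 | e6 | te6 | f4 | td4 | g2
  deriving DecidableEq

/-- numerator of the order -/
def nm : Fam → ℕ → ℕ
  | .e8, q => q ^ 120 * (q ^ 2 - 1) * (q ^ 8 - 1) * (q ^ 12 - 1) * (q ^ 14 - 1) *
      (q ^ 18 - 1) * (q ^ 20 - 1) * (q ^ 24 - 1) * (q ^ 30 - 1)
  | .e7, q => q ^ 63 * (q ^ 2 - 1) * (q ^ 6 - 1) * (q ^ 8 - 1) *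
      (q ^ 10 - 1) * (q ^ 12 - 1) * (q ^ 14 - 1) * (q ^ 18 - 1)
  | .e6, q => q ^ 36 * (q ^ 2 - 1) * (q ^ 5 - 1) * (q ^ 6 - 1) * (q ^ 8 - 1) * (q ^ 9 - 1) * (q ^ 12 - 1)
  | .te6, q => q ^ 36 * (q ^ 2 - 1) * (q ^ 5 + 1) * (q ^ 6 - 1) * (q ^ 8 - 1) * (q ^ 9 + 1) * (q ^ 12 - 1)
  | .f4, q => q ^ 24 * (q ^ 2 - 1) * (q ^ 6 - 1) * (q ^ 8 - 1) * (q ^ 12 - 1)
  | .td4, q => q ^ 12 * (q ^ 2 - 1) * (q ^ 6 - 1) * (q ^ 8 + q ^ 4 + 1)
  | .g2, q => q ^ 6 * (q ^ 2 - 1) * (q ^ 6 - 1)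

/-- denominator -/
def dn : Fam → ℕ → ℕ
  | .e7, q => Nat.gcd 2 (q - 1)
  | .e6, q => Nat.gcd 3 (q - 1)
  | .te6, q => Nat.gcd 3 (q + 1)
  | _, _ => 1

/-- the dimension -/
def dm : Fam → ℕ
  | .e8 => 248
  | .e7 => 133
  | .e6 => 78
  | .te6 => 78
  | .f4 => 52
  | .td4 => 28
  | .g2 => 14

theorem nm_mono (f : Fam) : Monotone (nm f) := by
  intro a b h
  cases f <;> simp only [nm] <;> gcongr

theorem dn_le (f : Fam) (q : ℕ) : dn f q ≤ 3 := by
  cases f <;> simp only [dn]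
  · omega
  · exact (Nat.gcd_le_left _ (by norm_num)).trans (by norm_num)
  · exact Nat.gcd_le_left _ (by norm_num)
  · exact Nat.gcd_le_left _ (by norm_num)
  · omega
  · omega
  · omega

/-- the order of a simple group of shape `X` -/
def tL (X : Art.Sh) (l e : ℕ) : ℕ := ((l ^ e) ^ Art.NN X * numL X (l ^ e)) / Art.dd X (l ^ e)

theorem tL_eq {X : Art.Sh} {l e t : ℕ} (h : Art.Real X l e t) : tL X l e = t := by
  have hd : 0 < Art.dd X (l ^ e) := by
    have hok := h.ok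
    cases X <;> simp only [Art.dd, Art.Ok] at hok ⊢ <;>
      first
      | omega
      | exact Nat.gcd_pos_of_pos_left _ (by omega)
  rw [tL, numL_eq, ← h.eq, Nat.mul_div_cancel_left _ hd]

/-- the number of nontrivial elementary abelian subgroups, for lists -/
def galC (s a : ℕ) : ℕ :=
  ((List.range a).map fun j => ((List.range (j + 1)).map fun i => s ^ a - s ^ i).prod /
    ((List.range (j + 1)).map fun i => s ^ (j + 1) - s ^ i).prod).sum

theorem galC_eq (s a : ℕ) : galC s a = gal s a := by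
  have h1 : galC s a = ∑ j ∈ Finset.range a, (∏ i ∈ Finset.range (j + 1), (s ^ a - s ^ i)) /
      (∏ i ∈ Finset.range (j + 1), (s ^ (j + 1) - s ^ i)) := rfl
  rw [h1, gal, Finset.range_eq_Ico, Finset.sum_Ico_add' (fun j => (∏ i ∈ Finset.range j, (s ^ a - s ^ i)) /
      (∏ i ∈ Finset.range j, (s ^ j - s ^ i))) 0 a 1]
  rfl

/-- the multiplicity of `p` in `t` -/
def vv (p : ℕ) : ℕ → ℕ → ℕ
  | 0, _ => 0
  | n + 1, t => if t % p = 0 then vv p n (t / p) + 1 else 0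

/-- the factorisation -/
def fac (t : ℕ) : List (ℕ × ℕ) := (prs.filter fun p => t % p == 0).map fun p => (p, vv p 200 t)

/-- `fac t` is correct -/
def facOk (t : ℕ) : Bool := Nat.beq ((fac t).map fun x => x.1 ^ x.2).prod t && Nat.blt 0 t

theorem prs_nodup : prs.Nodup := by decide +kernel

theorem prs_chk : (prs.all fun r => Nat.ble 2 r && (List.range r).all fun m => Nat.ble m 1 || r % m != 0) = true := by
  decide +kernel

theorem prs_prime : ∀ r ∈ prs, r.Prime := by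
  intro r hr
  have h := List.all_eq_true.1 prs_chk r hr
  simp only [Bool.and_eq_true, List.all_eq_true, Nat.ble_eq, Bool.or_eq_true, bne_iff_ne, ne_eq, List.mem_range] at h
  rw [Nat.prime_def_lt']
  refine ⟨h.1, fun m h2 hm hd => ?_⟩
  rcases h.2 m hm with h3 | h3
  · omega
  · exact h3 (Nat.mod_eq_zero_of_dvd hd)

theorem vv_pos {p t : ℕ} (h : t % p = 0) (n : ℕ) : 0 < vv p (n + 1) t := by
  rw [vv, if_pos h]
  omega

theorem fac_prime {t : ℕ} {x : ℕ × ℕ} (hx : x ∈ fac t) : x.1.Prime ∧ 0 < x.2 := by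
  rw [fac, List.mem_map] at hx
  obtain ⟨p, hp, rfl⟩ := hx
  rw [List.mem_filter] at hp
  refine ⟨prs_prime p hp.1, vv_pos ?_ 199⟩
  simpa using hp.2

theorem fac_nodup (t : ℕ) : ((fac t).map Prod.fst).Nodup := by
  rw [fac, List.map_map]
  have : (Prod.fst ∘ fun p : ℕ => (p, vv p 200 t)) = id := rfl
  rw [this, List.map_id]
  exact prs_nodup.filter _

theorem facOk_spec {t : ℕ} (h : facOk t = true) : ((fac t).map fun x => x.1 ^ x.2).prod = t ∧ 0 < t := by
  rw [facOk, Bool.and_eq_true] at h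
  refine ⟨Nat.eq_of_beq_eq_true h.1, ?_⟩
  have := h.2
  unfold Nat.blt at this
  exact Nat.le_of_ble_eq_true this

/-- `∑ gal` -/
def gs (t : ℕ) : ℕ := ((fac t).map fun x => galC x.1 x.2).sum

theorem gs_eq {t : ℕ} (h : facOk t = true) : galSum t = gs t := by
  have h1 := (galSum_list (fac t) (fun x hx => fac_prime hx) (fac_nodup t)).1
  rw [(facOk_spec h).1] at h1
  rw [h1, gs]
  simp only [galC_eq]

/-- the bound for the number of `LocK` subgroups -/
def Lc (t : ℕ) : ℕ := gs t * (t / 6) + t ^ 2 / 60 + t ^ 3 / 12744000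

/-- the bound for `|H : M|` -/
def Dk (t k : ℕ) : ℕ := if k ≤ 5 then max (t ^ k / 6 ^ k + 1) (t ^ (k - 1)) else t ^ k

/-- the bound for the number of the `M` with `M ∩ T_i = 1` -/
def Ik (t a k : ℕ) : ℕ := (k * a) ^ (k - 1) + (if k ≤ 5 then 0 else t ^ (k - 1) * (a * (4 * k)))

/-- **the bound for `|G|`** (TK) -/
def Bk (t a k : ℕ) : ℕ := (1 + (Lc t ^ k + Ik t a k) * (2 * Dk t k)) * (a ^ k * k.factorial)

end Cfsg.Agent.H746.EK
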